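import Cfsg.Agent.H25.Burnside
import Cfsg.Agent.S0205

/-!
# Five automorphism orbits: the element orders
-/

set_option autoImplicit false
set_option linter.style.haveILetI false

namespace Cfsg.Agent.H59.FiveOrbits

variable {G : Type*} [Group G] [Finite G]

/-- At most four nonidentity orders, and with four of them one orbit for each. -/
theorem exists_orders (h5 : Nat.card (MulAction.orbitRel.Quotient (MulAut G) G) ≤ 5) :
    ∃ O : Finset ℕ, (∀ n, n ∈ O ↔ n ≠ 1 ∧ ∃ g : G, orderOf g = n) ∧ O.card ≤ 4 ∧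
      (O.card = 4 → ∀ g h : G, orderOf g = orderOf h → ∃ α : MulAut G, α g = h) := by
  classical
  haveI := Fintype.ofFinite G
  haveI := Fintype.ofFinite (MulAction.orbitRel.Quotient (MulAut G) G)
  let f : MulAction.orbitRel.Quotient (MulAut G) G → ℕ := Quotient.lift (fun g : G => orderOf g)
    fun a b hab => by
      obtain ⟨α, hα⟩ := MulAction.orbitRel_apply.1 hab
      rw [← hα]
      exact MulEquiv.orderOf_eq α b
  let R : Finset ℕ := Finset.univ.image f
  have hR : ∀ n, n ∈ R ↔ ∃ g : G, orderOf g = n := by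
    intro n
    simp only [R, Finset.mem_image, Finset.mem_univ, true_and]
    constructor
    · rintro ⟨c, hc⟩
      obtain ⟨g, rfl⟩ := Quotient.exists_rep c
      exact ⟨g, hc⟩
    · rintro ⟨g, hg⟩
      exact ⟨Quotient.mk _ g, hg⟩
  have hRc : R.card ≤ 5 := Finset.card_image_le.trans (by
    rw [Finset.card_univ, ← Nat.card_eq_fintype_card]; exact h5)
  have h1 : 1 ∈ R := (hR 1).2 ⟨1, orderOf_one⟩
  refine ⟨R.erase 1, fun n => by rw [Finset.mem_erase, hR], by
    rw [Finset.card_erase_of_mem h1]; omega, fun h4 g h hgh => ?_⟩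
  rw [Finset.card_erase_of_mem h1] at h4
  have hcard : (Finset.univ.image f).card = (Finset.univ : Finset (MulAction.orbitRel.Quotient (MulAut G) G)).card := by
    refine le_antisymm Finset.card_image_le ?_
    rw [Finset.card_univ, ← Nat.card_eq_fintype_card]
    exact h5.trans (show 5 ≤ R.card by omega)
  have e : (Quotient.mk _ g : MulAction.orbitRel.Quotient (MulAut G) G) = Quotient.mk _ h :=
    Finset.card_image_iff.1 hcard (Finset.mem_coe.2 (Finset.mem_univ _))
      (Finset.mem_coe.2 (Finset.mem_univ _)) hgh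
  obtain ⟨α, hα⟩ := MulAction.orbitRel_apply.1 (Quotient.exact e.symm)
  exact ⟨α, hα⟩

/-- Fewer than three primes give a solvable group. -/
theorem isSolvable_of_card_primeFactors (h : (Nat.card G).primeFactors.card ≤ 2) :
    Group.IsSolvable G := by
  rcases Nat.even_or_odd (Nat.card G) with he | ho
  swap
  · exact S0205.result ho
  have h2 : 2 ∈ (Nat.card G).primeFactors :=
    Nat.mem_primeFactors.2 ⟨Nat.prime_two, even_iff_two_dvd.1 he, Nat.card_pos.ne'⟩
  obtain ⟨r, hr, hsub⟩ : ∃ r : ℕ, r.Prime ∧ ∀ s ∈ (Nat.card G).primeFactors, s = 2 ∨ s = r := by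
    by_cases hex : ∃ r ∈ (Nat.card G).primeFactors, r ≠ 2
    · obtain ⟨r, hr, hr2⟩ := hex
      refine ⟨r, (Nat.mem_primeFactors.1 hr).1, fun s hs => ?_⟩
      by_contra hc
      push Not at hc
      have h3 : ({2, r, s} : Finset ℕ) ⊆ (Nat.card G).primeFactors := by
        intro a ha
        simp only [Finset.mem_insert, Finset.mem_singleton] at ha
        rcases ha with rfl | rfl | rfl <;> assumption
      have h4 : ({2, r, s} : Finset ℕ).card = 3 :=
        Finset.card_eq_three.2 ⟨2, r, s, Ne.symm hr2, Ne.symm hc.1, Ne.symm hc.2, rfl⟩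
      have := Finset.card_le_card h3
      omega
    · push Not at hex
      exact ⟨3, Nat.prime_three, fun s hs => Or.inl (hex s hs)⟩
  refine H25.isSolvable_of_card_eq_mul_pow (a := (Nat.card G).factorization 2)
    (b := (Nat.card G / 2 ^ (Nat.card G).factorization 2).primeFactorsList.length)
    Nat.prime_two hr ?_
  conv_lhs => rw [← Nat.ordProj_mul_ordCompl_eq_self (Nat.card G) 2]
  congr 1
  refine Nat.eq_prime_pow_of_unique_prime_dvd (Nat.ordCompl_pos 2 Nat.card_pos.ne').ne' ?_
  intro s hs hd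
  have hs2 : s ≠ 2 := fun e => Nat.not_dvd_ordCompl Nat.prime_two Nat.card_pos.ne' (e ▸ hd)
  exact (hsub s (Nat.mem_primeFactors.2 ⟨hs, hd.trans (Nat.ordCompl_dvd _ 2),
    Nat.card_pos.ne'⟩)).resolve_left hs2

end Cfsg.Agent.H59.FiveOrbits
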